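import Cfsg.Agent.H890.E65.FundD

/-!
# S3650: the six fundamental highest weight functions of `E₆(5)` (helper890)

`exists_fund` : the functions `ff _ _ i` are highest weight functions with character `h_j(t) ↦ t ^ δ_{ij}`.
-/

set_option autoImplicit false
set_option maxHeartbeats 400000

namespace Cfsg.Agent.H890.E65

open Cfsg.Lie Cfsg.Agent.H163.E65 Cfsg.Agent.ChevalleyStructure.E6Min.Tables
  Cfsg.Agent.ChevalleyStructure.E6Min.Basic Cfsg.Agent.ChevalleyStructure.E6Min.Adjoint
  Cfsg.Agent.ChevalleyStructure.E6Min.Checks2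
  Cfsg.Agent.ChevalleyStructure Cfsg.Agent.ChevalleyStructure.Elts Cfsg.Agent.Nodes.RGDChev
open scoped Matrix MatrixGroups

/-! ### the adjoint module -/

/-- the adjoint module -/
def R3 : L5 →* Matrix chevE6.Idx chevE6.Idx (ZMod 5) := (Units.coeHom _).comp (Subgroup.subtype _)

theorem R3_apply (A : L5) : R3 A = ((A : GL chevE6.Idx (ZMod 5)) : Matrix chevE6.Idx chevE6.Idx (ZMod 5)) := rfl

/-- the root with index `r` -/
def rr (r : ℕ) (hr : r < 72) : Fin chevE6.nroots := ⟨r, hr⟩

theorem R3_x5 {r : ℕ} (hr : r < 72) (t : ZMod 5) : R3 (x5 r t) = chevE6.xMat (ZMod 5) (rr r hr) t := x_eq hr t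

/-- the index of the highest root -/
def hi : Fin chevE6.nroots := rr 71 (by norm_num)

theorem col_all : allLt 36 (fun r => (kN (36 + r) 71 == 127)) = true := by decide +kernel

theorem row_all' : allLt 36 (fun r => allLt 72 fun s => !(kN r s == 71)) = true := by decide +kernel

theorem xMat_self_apply (s : Fin chevE6.nroots) (t : ZMod 5) (y : chevE6.Idx) :
    chevE6.xMat (ZMod 5) s t y (Sum.inr s) = if y = Sum.inr s then 1 else 0 := by
  have h0 : chevE6.xMat (ZMod 5) s t y (Sum.inr s) =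
    (match y with | Sum.inr u => if u = s then 1 else 0 | Sum.inl _ => 0) := by
    unfold ChevalleyDatum.xMat
    rw [Matrix.of_apply]
    show (if s = s then _ else _) = _
    rw [if_pos rfl]
    rcases y with i | u <;> rfl
  rw [h0]
  rcases y with i | u
  · simp
  · simp

/-- the column of the highest root, no sum -/
theorem col_none {r : ℕ} (hr : r < 72) (h0 : r ≠ 0) (hk : kN r 71 = 127) (t : ZMod 5) (y : chevE6.Idx) :
    chevE6.xMat (ZMod 5) (rr r hr) t y (Sum.inr hi) = if y = Sum.inr hi then 1 else 0 := by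
  by_cases h71 : r = 71
  · subst h71
    exact xMat_self_apply hi t y
  · rw [xMat_other_apply (rr r hr) hi (fun e => h71 (congrArg Fin.val e).symm)
      (fun e => h0 (by have : 71 = 71 - r := e; omega))]
    rcases y with i | u
    · simp
    · show (if u = hi then (1 : ZMod 5) else 0) + ((chevE6.chainCoeff r 71 u.val).map fun km =>
        ((km.2 : ℤ) : ZMod 5) * t ^ km.1).sum = _
      rw [chainCoeff_eq hr (by norm_num), if_pos (Or.inr hk)]
      simp

/-- a column, a sum -/
theorem col_some {r s : ℕ} (hr : r < 72) (hs : s < 72) (hsr : s ≠ r) (hsr' : s ≠ 71 - r) {v : ℕ} (hv : v < 72)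
    (hk : kN r s = v)
    (t : ZMod 5) (y : chevE6.Idx) :
    chevE6.xMat (ZMod 5) (rr r hr) t y (Sum.inr (rr s hs)) = (if y = Sum.inr (rr s hs) then 1 else 0) +
      if y = Sum.inr (rr v hv) then ((cN r s : ℤ) : ZMod 5) * t else 0 := by
  rw [xMat_other_apply (rr r hr) (rr s hs) (fun e => hsr (congrArg Fin.val e)) hsr']
  rcases y with i | u
  · simp
  · show (if u = rr s hs then (1 : ZMod 5) else 0) + ((chevE6.chainCoeff r s u.val).map fun km =>
      ((km.2 : ℤ) : ZMod 5) * t ^ km.1).sum = _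
    have hk2 : ¬ (s + r = 71 ∨ kN r s = 127) := by rintro (h | h) <;> omega
    rw [chainCoeff_eq hr hs, if_neg hk2, hk]
    refine congrArg₂ (· + ·) (by simp) ?_
    by_cases h : u = rr v hv
    · subst h
      rw [if_pos rfl, if_pos (show v = (rr v hv).val from rfl)]
      simp
    · have h1 : v ≠ u.val := fun e => h (Fin.ext e.symm)
      rw [if_neg h1, if_neg (fun e => h (Sum.inr_injective e))]
      simp

theorem row_hi {r : ℕ} (hr : r < 36) (t : ZMod 5) (y : chevE6.Idx) :
    chevE6.xMat (ZMod 5) (rr r (by omega)) t (Sum.inr hi) y = if y = Sum.inr hi then 1 else 0 := by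
  have hne : hi ≠ rr r (by omega) := fun e => by have : 71 = r := congrArg Fin.val e; omega
  rcases y with i | s
  · have h1 : chevE6.xMat (ZMod 5) (rr r (by omega)) t (Sum.inr hi) (Sum.inl i) =
        if hi = rr r (by omega) then -(((carN i.val r : ℤ) : ZMod 5)) * t else 0 := rfl
    rw [h1, if_neg hne]
    simp
  · by_cases h1 : s = rr r (by omega)
    · subst h1
      rw [xMat_self_apply]
      simp only [Sum.inr.injEq, eq_comm]
    · by_cases h2 : s.val = 71 - r
      · rw [xMat_opp_apply (rr r (by omega)) s h2]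
        show (if hi = s then (1 : ZMod 5) else if hi = rr r (by omega) then -(t ^ 2) else 0) = _
        rw [if_neg hne]
        simp only [Sum.inr.injEq, eq_comm]
      · rw [xMat_other_apply (rr r (by omega)) s h1 h2]
        show (if hi = s then (1 : ZMod 5) else 0) + ((chevE6.chainCoeff r s.val 71).map fun km =>
          ((km.2 : ℤ) : ZMod 5) * t ^ km.1).sum = _
        rw [chainCoeff_eq (by omega) s.isLt]
        have h3 := allLt_spec (allLt_spec row_all' r hr) s.val s.isLt
        simp only [Bool.not_eq_true', beq_eq_false_iff_ne] at h3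
        rw [if_neg h3]
        simp [eq_comm]

theorem diag_R3 {A : L5} (hA : A ∈ T5) : ∃ d, R3 A = Matrix.diagonal d := by
  obtain ⟨χ, h⟩ := HMatDiagAll.diagonalSubgroup_le_torus (D := chevE6) (F := ZMod 5) e6T.inList hA
  exact ⟨_, h⟩

variable {W : Type*} [Group W] (cs : CoxeterSystem CoxeterMatrix.E₆ W)

/-- the column of the highest root -/
def ρ3 : Fin 1 → chevE6.Idx := fun _ => Sum.inr hi

theorem ρ3_inj : Function.Injective ρ3 := Function.injective_of_subsingleton _

theorem lev_all : allLt 6 (fun j => (j == 1) || (kN (71 - sI j) 71 == 127)) = true := by decide +kernel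

theorem hw_R3 : HW cs e6T.isCartan T5 n5 X5 (mnr R3 ρ3) (mnr R3 ρ3) {j | j ≠ 1} := by
  have hcol : ∀ r (hr : r < 72), r ≠ 0 → kN r 71 = 127 → ∀ t, ∀ a : Fin 1, R3 (x5 r t) (ρ3 a) (ρ3 a) = 1 ∧
      ∀ y, (∀ b ≤ a, y ≠ ρ3 b) → R3 (x5 r t) y (ρ3 a) = 0 := by
    intro r hr h0 hk t a
    rw [R3_x5 hr]
    constructor
    · exact (col_none hr h0 hk t _).trans (if_pos rfl)
    · intro y hy
      exact (col_none hr h0 hk t _).trans (if_neg (hy a le_rfl))
  refine hw_of cs R3 ρ3_inj 0 1 ?_ ?_ ?_ (fun t ht => diag_R3 ht) ?_ ?_ ?_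
  · intro r hr t a
    rw [R3_x5 (by omega)]
    constructor
    · exact (row_hi hr t _).trans (if_pos rfl)
    · intro y hy
      exact (row_hi hr t _).trans (if_neg (hy a le_rfl))
  · intro r hr hr' t a
    obtain ⟨s, rfl⟩ := Nat.exists_eq_add_of_le hr'
    have h1 := allLt_spec col_all s (by omega)
    rw [beq_iff_eq] at h1
    exact hcol _ hr (by omega) h1 t a
  · intro j hj t
    have h1 := allLt_spec lev_all j j.isLt
    rw [Bool.or_eq_true, beq_iff_eq, beq_iff_eq] at h1
    have h2 := sI_lt j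
    have h3 : ∀ j : Fin 6, 71 - sI j ≠ 0 := by decide +kernel
    exact Or.inl (hcol _ (by omega) (h3 j) (h1.resolve_left fun e => hj (Fin.ext e)) t)
  · intro a ha
    exact absurd (Subsingleton.elim a 0) ha
  · intro a ha
    exact absurd (Subsingleton.elim a 0) ha
  · intro x
    -- `n e_71 = - e_70 = e_71 - y(1) e_71`
    have e1 : sI (1 : Fin 6) = 46 := rfl
    have hn : R3 (n5 1) x (ρ3 0) = - (if x = Sum.inr (rr 70 (by norm_num)) then 1 else 0) := by
      rw [n5_eq, e1, map_mul, map_mul, R3_x5 (by norm_num), R3_x5 (by norm_num)]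
      have h1 : ∀ z, (chevE6.xMat (ZMod 5) (rr (71 - 46) (by norm_num)) (-1) *
          chevE6.xMat (ZMod 5) (rr 46 (by norm_num)) 1) z (ρ3 0) =
          (if z = Sum.inr hi then 1 else 0) + if z = Sum.inr (rr 70 (by norm_num)) then -1 else 0 := by
        intro z
        rw [Matrix.mul_apply, Finset.sum_eq_single (Sum.inr hi)]
        · have h2 := col_none (r := 46) (by norm_num) (by norm_num) (by decide +kernel) 1 (Sum.inr hi)
          have h3 := col_some (r := 25) (s := 71) (by norm_num) (by norm_num) (by norm_num) (by norm_num) (v := 70)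
            (by norm_num) (by decide +kernel) (-1) z
          have h4 : cN 25 71 = 1 := by decide +kernel
          rw [h4, Int.cast_one, one_mul] at h3
          rw [if_pos rfl] at h2
          refine (congrArg₂ (· * ·) h3 h2).trans ?_
          rw [mul_one]
          rfl
        · intro u _ hu
          have h2 := col_none (r := 46) (by norm_num) (by norm_num) (by decide +kernel) 1 u
          rw [if_neg hu] at h2
          exact (congrArg (_ * ·) h2).trans (mul_zero _)
        · intro h; exact absurd (Finset.mem_univ _) h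
      rw [Matrix.mul_apply]
      simp only [h1, mul_add, mul_ite, mul_one, mul_zero, mul_neg]
      rw [Finset.sum_add_distrib, Finset.sum_ite_eq' Finset.univ (Sum.inr hi),
        Finset.sum_ite_eq' Finset.univ (Sum.inr (rr 70 (by norm_num))), if_pos (Finset.mem_univ _),
        if_pos (Finset.mem_univ _)]
      have h2 := col_none (r := 46) (by norm_num) (by norm_num) (by decide +kernel) 1 x
      have h3 := col_some (r := 46) (s := 70) (by norm_num) (by norm_num) (by norm_num) (by norm_num) (v := 71)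
        (by norm_num) (by decide +kernel) 1 x
      have h4 : cN 46 70 = 1 := by decide +kernel
      rw [h4, Int.cast_one, one_mul] at h3
      refine (congrArg₂ (fun a b => a + -b) h2 h3).trans ?_
      have h5 : (hi : Fin chevE6.nroots) = rr 71 (by norm_num) := rfl
      rw [h5]
      ring
    have hy : R3 (x5 (71 - sI (1 : Fin 6)) 1) x (ρ3 0) =
        (if x = Sum.inr hi then 1 else 0) + if x = Sum.inr (rr 70 (by norm_num)) then 1 else 0 := by
      rw [e1, R3_x5 (by norm_num)]
      have h3 := col_some (r := 25) (s := 71) (by norm_num) (by norm_num) (by norm_num) (by norm_num) (v := 70)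
        (by norm_num) (by decide +kernel) 1 x
      have h4 : cN 25 71 = 1 := by decide +kernel
      rw [h4, Int.cast_one, one_mul] at h3
      exact h3
    rw [hn, hy, Matrix.one_apply]
    show _ = (if x = Sum.inr hi then (1 : ZMod 5) else 0) - _
    ring

/-! ### the six functions -/

/-- the codes for the 27-dimensional module -/
def cA (a : ℕ) : ℕ := 9 + 3 * a

/-- the codes for the dual module -/
def cB (a : ℕ) : ℕ := 18 + a

/-- the fundamental functions -/
noncomputable def fn : Fin 6 → L5 → ZMod 5 :=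
  ![mnr R2 fun a : Fin 1 => dec (cB a), mnr R3 ρ3, mnr R2 fun a : Fin 2 => dec (cB a),
    mnr R1 fun a : Fin 3 => dec (cA a), mnr R1 fun a : Fin 2 => dec (cA a), mnr R1 fun a : Fin 1 => dec (cA a)]

theorem hw_fn (i : Fin 6) : HW cs e6T.isCartan T5 n5 X5 (fn i) (fn i) {j | j ≠ i} := by
  fin_cases i
  · exact hw_R2 cs cB 1 (by decide +kernel) (by decide +kernel) 0 0 (by decide +kernel) (by decide +kernel)
      (by decide +kernel) (by decide +kernel) (by decide +kernel) (by decide +kernel)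
  · exact hw_R3 cs
  · exact hw_R2 cs cB 2 (by decide +kernel) (by decide +kernel) 1 2 (by decide +kernel) (by decide +kernel)
      (by decide +kernel) (by decide +kernel) (by decide +kernel) (by decide +kernel)
  · exact hw_R1 cs cA 3 (by decide +kernel) (by decide +kernel) 2 3 (by decide +kernel) (by decide +kernel)
      (by decide +kernel) (by decide +kernel) (by decide +kernel) (by decide +kernel)
  · exact hw_R1 cs cA 2 (by decide +kernel) (by decide +kernel) 1 4 (by decide +kernel) (by decide +kernel)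
      (by decide +kernel) (by decide +kernel) (by decide +kernel) (by decide +kernel)
  · exact hw_R1 cs cA 1 (by decide +kernel) (by decide +kernel) 0 5 (by decide +kernel) (by decide +kernel)
      (by decide +kernel) (by decide +kernel) (by decide +kernel) (by decide +kernel)

/-! ### the values on the torus -/

theorem prod_zpow' {t : ZMod 5} (ht : t ≠ 0) {m : ℕ} (w : Fin m → ℤ) : ∏ a, t ^ w a = t ^ ∑ a, w a := by
  induction m with
  | zero => simp
  | succ m ih => rw [Fin.prod_univ_succ, Fin.sum_univ_succ, ih, zpow_add₀ ht]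

theorem tor_R1 (c : ℕ → ℕ) (m : ℕ) (hc : ∀ a < m, c a < 27) (hi : ∀ a < m, ∀ b < m, c a = c b → a = b)
    (j : Fin 6) {t : ZMod 5} (ht : t ≠ 0) :
    mnr R1 (fun a : Fin m => dec (c a)) (h5 j t) = t ^ ∑ a : Fin m, lbN (c a) j := by
  rw [mnr_diag R1 (dec_inj hc hi) (R1_h5 j ht), prod_zpow' ht]
  congr 1
  refine Finset.sum_congr rfl fun a _ => ?_
  unfold wt
  rw [code_dec (hc a a.isLt)]

theorem tor_R2 (c : ℕ → ℕ) (m : ℕ) (hc : ∀ a < m, c a < 27) (hi : ∀ a < m, ∀ b < m, c a = c b → a = b)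
    (j : Fin 6) {t : ZMod 5} (ht : t ≠ 0) :
    mnr R2 (fun a : Fin m => dec (c a)) (h5 j t) = t ^ (-∑ a : Fin m, lbN (c a) j) := by
  have h1 : R2 (h5 j t) = Matrix.diagonal fun x => t⁻¹ ^ (wt x j) := by
    rw [R2_apply, hh_inv ht, Matrix.diagonal_transpose]
  rw [mnr_diag R2 (dec_inj hc hi) h1, prod_zpow' (inv_ne_zero ht), inv_zpow, zpow_neg]
  congr 2
  refine Finset.sum_congr rfl fun a _ => ?_
  unfold wt
  rw [code_dec (hc a a.isLt)]

theorem tor_R3 (j : Fin 6) {t : ZMod 5} (ht : t ≠ 0) : mnr R3 ρ3 (h5 j t) = t ^ (HMatDiagAll.expo chevE6 (sI j) 71) := by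
  have h1 := HMatDiagAll.hMat_eq_diagonal (D := chevE6) e6T.inList (sI_lt j).1 ht
  have h2 : R3 (h5 j t) = chevE6.hMat (ZMod 5) (sI j) t := by
    rw [h5_eq]
    exact coe_hG e6T.inList (sI j) t
  rw [mnr_diag R3 ρ3_inj (h2.trans h1), Fin.prod_univ_one]
  rfl

theorem expo_all (j : Fin 6) : HMatDiagAll.expo chevE6 (sI j) 71 = if (1 : Fin 6) = j then 1 else 0 := by
  revert j; decide +kernel

theorem zpow_ite' (t : ZMod 5) (i j : Fin 6) : t ^ (if i = j then (1 : ℤ) else 0) = if i = j then t else 1 := by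
  split_ifs
  · rw [zpow_one]
  · rw [zpow_zero]

theorem fn_tor (i j : Fin 6) {t : ZMod 5} (ht : t ≠ 0) : fn i (h5 j t) = if i = j then t else 1 := by
  rw [← zpow_ite']
  fin_cases i
  · refine (tor_R2 cB 1 (by decide +kernel) (by decide +kernel) j ht).trans ?_
    congr 1
    revert j
    decide +kernel
  · refine (tor_R3 j ht).trans ?_
    rw [expo_all]
    rfl
  · refine (tor_R2 cB 2 (by decide +kernel) (by decide +kernel) j ht).trans ?_
    congr 1
    revert j
    decide +kernel
  · refine (tor_R1 cA 3 (by decide +kernel) (by decide +kernel) j ht).trans ?_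
    congr 1
    revert j
    decide +kernel
  · refine (tor_R1 cA 2 (by decide +kernel) (by decide +kernel) j ht).trans ?_
    congr 1
    revert j
    decide +kernel
  · refine (tor_R1 cA 1 (by decide +kernel) (by decide +kernel) j ht).trans ?_
    congr 1
    revert j
    decide +kernel

/-! ### the formulas -/

theorem R1_ad (g : Zgrp (ZMod 5)) : R1 (ad (ZMod 5) g) = g.1.1 := by
  rw [R1_apply, eE_ad]

theorem R2_ad (g : Zgrp (ZMod 5)) : R2 (ad (ZMod 5) g) = ((g⁻¹).1.1)ᵀ := by
  rw [R2_apply, ← map_inv, R1_ad]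

theorem nine_all : allLt 72 (fun r => (r == 71) || (sgN r 9 == 0) || !(srN r 9 == srN 71 9)) = true := by
  decide +kernel

theorem comb_nine (c : chevE6.Idx → ZMod 5) :
    comb c (dec 9) (sr 71 (dec 9)) = c (Sum.inr hi) * ((sg 71 (dec 9) : ℤ) : ZMod 5) := by
  have h9 : code (dec 9) = 9 := code_dec (by norm_num)
  have h2 : dec 9 ≠ sr 71 (dec 9) := by decide +kernel
  rw [comb_split, Matrix.add_apply, Matrix.sum_apply, Matrix.sum_apply]
  have e1 : ∑ i : Fin chevE6.rank, (c (Sum.inl i) • Hm (ZMod 5) i.val) (dec 9) (sr 71 (dec 9)) = 0 := by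
    refine Finset.sum_eq_zero fun i _ => ?_
    rw [Matrix.smul_apply, Hm_apply, if_neg h2, smul_zero]
  rw [e1, zero_add, Finset.sum_eq_single hi]
  · show (c (Sum.inr hi) • Nm (ZMod 5) 71) (dec 9) (sr 71 (dec 9)) = _
    rw [Matrix.smul_apply, Nm_apply, if_pos rfl, smul_eq_mul]
  · intro s _ hs
    rw [Matrix.smul_apply, Nm_apply]
    have h3 := allLt_spec nine_all s.val s.isLt
    simp only [Bool.or_eq_true, beq_iff_eq, Bool.not_eq_true', beq_eq_false_iff_ne] at h3
    rcases h3 with (h3 | h3) | h3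
    · exact absurd (Fin.ext h3) hs
    · rw [show sg s.val (dec 9) = 0 by unfold sg; rw [h9]; exact h3]
      simp
    · rw [if_neg, smul_zero]
      intro e
      apply h3
      have h4 := congrArg code e
      rw [code_sr (by norm_num), code_sr s.isLt, h9] at h4
      exact h4.symm
  · intro h; exact absurd (Finset.mem_univ _) h

theorem R3_ad (g : Zgrp (ZMod 5)) : R3 (ad (ZMod 5) g) (Sum.inr hi) (Sum.inr hi) = ff g.1.1 (g⁻¹).1.1 1 := by
  have h1 := ad_P g (Sum.inr hi)
  have h2 : g.1.1 * (Nm (ZMod 5) 71 * (g⁻¹).1.1) =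
      comb fun row => R3 (ad (ZMod 5) g) row (Sum.inr hi) := by
    have h3 : (g.1.1 : Matrix I27 I27 (ZMod 5)) * (g⁻¹).1.1 = 1 := by
      have : (g * g⁻¹ : Zgrp (ZMod 5)).1.1 = (1 : Matrix I27 I27 (ZMod 5)) := by rw [mul_inv_cancel]; rfl
      exact this
    calc g.1.1 * (Nm (ZMod 5) 71 * (g⁻¹).1.1) = (g.1.1 * B (ZMod 5) (Sum.inr hi)) * (g⁻¹).1.1 := by
          rw [mul_assoc]; rfl
      _ = ((comb fun row => R3 (ad (ZMod 5) g) row (Sum.inr hi)) * g.1.1) * (g⁻¹).1.1 := congrArg (· * _) h1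
      _ = _ := by rw [mul_assoc, h3, mul_one]
  have h4 := congrFun (congrFun h2 (dec 9)) (sr 71 (dec 9))
  rw [comb_nine, Matrix.mul_apply] at h4
  simp only [Nm_mul_apply] at h4
  have h5 : ((sg 71 (dec 9) : ℤ) : ZMod 5) * ((sg 71 (dec 9) : ℤ) : ZMod 5) = 1 := by
    rw [← Int.cast_mul, sg_sq 71 (dec 9) (by decide +kernel), Int.cast_one]
  have h6 : R3 (ad (ZMod 5) g) (Sum.inr hi) (Sum.inr hi) = ((sg 71 (dec 9) : ℤ) : ZMod 5) *
      (R3 (ad (ZMod 5) g) (Sum.inr hi) (Sum.inr hi) * ((sg 71 (dec 9) : ℤ) : ZMod 5)) := by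
    rw [mul_left_comm, h5, mul_one]
  rw [h6, ← h4, Finset.mul_sum]
  show _ = ∑ x : I27, (sg 71 (dec 9) : ZMod 5) * (sg 71 x : ZMod 5) * g.1.1 (dec 9) x *
    (g⁻¹).1.1 (sr 71 x) (sr 71 (dec 9))
  refine Finset.sum_congr rfl fun x _ => ?_
  ring

theorem fn_ad (i : Fin 6) (g : Zgrp (ZMod 5)) : fn i (ad (ZMod 5) g) = ff g.1.1 (g⁻¹).1.1 i := by
  fin_cases i
  · show ((R2 (ad (ZMod 5) g)).submatrix _ _).det = (g⁻¹).1.1 (dec 18) (dec 18)
    rw [R2_ad, Matrix.det_fin_one]
    rfl
  · show ((R3 (ad (ZMod 5) g)).submatrix _ _).det = _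
    rw [Matrix.det_fin_one]
    exact R3_ad g
  · show ((R2 (ad (ZMod 5) g)).submatrix _ _).det = (g⁻¹).1.1 (dec 18) (dec 18) * (g⁻¹).1.1 (dec 19) (dec 19) -
      (g⁻¹).1.1 (dec 18) (dec 19) * (g⁻¹).1.1 (dec 19) (dec 18)
    rw [R2_ad, Matrix.det_fin_two]
    show (g⁻¹).1.1 (dec 18) (dec 18) * (g⁻¹).1.1 (dec 19) (dec 19) -
      (g⁻¹).1.1 (dec 19) (dec 18) * (g⁻¹).1.1 (dec 18) (dec 19) = _
    ring
  · show ((R1 (ad (ZMod 5) g)).submatrix _ _).det = ((g.1.1).submatrix ![dec 9, dec 12, dec 15]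
      ![dec 9, dec 12, dec 15]).det
    have h1 : (fun a : Fin 3 => dec (cA a)) = ![dec 9, dec 12, dec 15] := by
      funext a
      fin_cases a <;> rfl
    rw [R1_ad, h1]
  · show ((R1 (ad (ZMod 5) g)).submatrix _ _).det = g.1.1 (dec 9) (dec 9) * g.1.1 (dec 12) (dec 12) -
      g.1.1 (dec 9) (dec 12) * g.1.1 (dec 12) (dec 9)
    rw [R1_ad, Matrix.det_fin_two]
    rfl
  · show ((R1 (ad (ZMod 5) g)).submatrix _ _).det = g.1.1 (dec 9) (dec 9)
    rw [R1_ad, Matrix.det_fin_one]
    rfl

/-- **the six fundamental highest weight functions of `E₆(5)`** -/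
theorem exists_fund {W : Type*} [Group W] (cs : CoxeterSystem CoxeterMatrix.E₆ W) :
    ∃ φ χ : Fin 6 → L5 → ZMod 5,
      (∀ i (g : Zgrp (ZMod 5)), φ i (ad (ZMod 5) g) = ff g.1.1 (g⁻¹).1.1 i) ∧
      (∀ i, HW cs e6T.isCartan T5 n5 X5 (φ i) (χ i) {j | j ≠ i}) ∧
      ∀ i j (t : ZMod 5), t ≠ 0 → χ i (h5 j t) = if i = j then t else 1 :=
  ⟨fn, fn, fn_ad, hw_fn cs, fun i j _ ht => fn_tor i j ht⟩

end Cfsg.Agent.H890.E65
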