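import Cfsg.Agent.H163.E65.Inst

/-!
# S3650, fundamental functions of `E₆(5)`, part A (helper890)

`ad (ZMod 5)` is injective; `eE : L5 ≃* Zgrp (ZMod 5)`; the root elements `x5 r t`.
-/

set_option autoImplicit false

namespace Cfsg.Agent.H890.E65

open Cfsg.Lie Cfsg.Agent.H163.E65 Cfsg.Agent.ChevalleyStructure.E6Min.Tables
  Cfsg.Agent.ChevalleyStructure.E6Min.Basic Cfsg.Agent.ChevalleyStructure.E6Min.Adjoint
  Cfsg.Agent.ChevalleyStructure Cfsg.Agent.ChevalleyStructure.Elts Cfsg.Agent.Nodes.RGDChev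
open scoped Matrix MatrixGroups

/-! ### tables -/

/-- two different weights differ modulo 5 -/
theorem wt_sep_all : allLt 27 (fun x => allLt 27 fun y => (x == y) ||
    !(allLt 6 fun i => (lbN x i - lbN y i) % 5 == 0)) = true := by decide +kernel

theorem wt_sep {x y : I27} (h : ∀ i < 6, ((wt x i : ℤ) : ZMod 5) = ((wt y i : ℤ) : ZMod 5)) : x = y := by
  have h1 := allLt_spec (allLt_spec wt_sep_all _ (code_lt x)) _ (code_lt y)
  simp only [Bool.or_eq_true, beq_iff_eq, Bool.not_eq_true'] at h1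
  rcases h1 with h1 | h1
  · exact code_injective h1
  · exfalso
    have h2 : (allLt 6 fun i => (lbN (code x) i - lbN (code y) i) % 5 == 0) = true := by
      have h3 : ∀ i < 6, (lbN (code x) i - lbN (code y) i) % 5 = 0 := by
        intro i hi
        have h4 := h i hi
        have h5 := (ZMod.intCast_eq_intCast_iff_dvd_sub _ _ 5).1 h4
        unfold wt at h5
        omega
      have h4 : ∀ n, (∀ i < n, (lbN (code x) i - lbN (code y) i) % 5 = 0) →
          allLt n (fun i => (lbN (code x) i - lbN (code y) i) % 5 == 0) = true := by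
        intro n
        induction n with
        | zero => intro _; rfl
        | succ n ih =>
          intro hn
          show (((lbN (code x) n - lbN (code y) n) % 5 == 0) && allLt n _) = true
          rw [Bool.and_eq_true, beq_iff_eq]
          exact ⟨hn n (Nat.lt_succ_self n), ih fun i hi => hn i (Nat.lt_succ_of_lt hi)⟩
      exact h4 6 h3
    rw [h1] at h2
    exact Bool.false_ne_true h2

/-- every index is joined to the index 9 by at most two roots -/
theorem conn_all : allLt 27 (fun x => (x == 9) || !(allLt 72 fun r => (sgN r x == 0) || !((srN r x == 9) ||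
    !(allLt 72 fun s => (sgN s (srN r x) == 0) || !(srN s (srN r x) == 9))))) = true := by decide +kernel

theorem not_allLt' {n : ℕ} {p : ℕ → Bool} (h : (!(allLt n p)) = true) : ∃ k < n, p k = false := by
  by_contra hc
  push Not at hc
  have h4 : ∀ m ≤ n, allLt m p = true := by
    intro m
    induction m with
    | zero => intro _; rfl
    | succ m ih =>
      intro hm
      show (p m && allLt m p) = true
      rw [Bool.and_eq_true]
      exact ⟨by simpa using hc m (by omega), ih (by omega)⟩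
  rw [h4 n le_rfl] at h
  exact Bool.false_ne_true h

/-! ### the determinant -/

theorem zM_pow {r : ℕ} (hr : r < 72) (t : ZMod 5) (n : ℕ) : zM r t ^ n = zM r ((n : ZMod 5) * t) := by
  induction n with
  | zero => rw [pow_zero, Nat.cast_zero, zero_mul, zM_zero]
  | succ n ih => rw [pow_succ, ih, zM_mul hr, Nat.cast_succ, add_mul, one_mul]

theorem det_zM {r : ℕ} (hr : r < 72) (t : ZMod 5) : (zM r t : Matrix I27 I27 (ZMod 5)).det = 1 := by
  have h1 : zM r t ^ 5 = 1 := by
    rw [zM_pow hr, show ((5 : ℕ) : ZMod 5) = 0 from rfl, zero_mul, zM_zero]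
  have h2 : (zM r t : Matrix I27 I27 (ZMod 5)).det ^ 5 = 1 := by
    rw [← Matrix.det_pow, h1, Matrix.det_one]
  generalize (zM r t : Matrix I27 I27 (ZMod 5)).det = d at h2
  revert h2
  revert d
  decide

theorem det_Zgrp {g : GL I27 (ZMod 5)} (hg : g ∈ Zgrp (ZMod 5)) : (g : Matrix I27 I27 (ZMod 5)).det = 1 := by
  unfold Zgrp at hg
  induction hg using Subgroup.closure_induction with
  | mem x hx =>
    obtain ⟨r, t, hr, h⟩ := hx
    rw [h, det_zM hr]
  | one => rw [Units.val_one, Matrix.det_one]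
  | mul x y _ _ hx hy => rw [Units.val_mul, Matrix.det_mul, hx, hy, one_mul]
  | inv x _ hx =>
    have h1 : ((x * x⁻¹ : GL I27 (ZMod 5)) : Matrix I27 I27 (ZMod 5)).det = 1 := by
      rw [mul_inv_cancel, Units.val_one, Matrix.det_one]
    rw [Units.val_mul, Matrix.det_mul, hx, one_mul] at h1
    exact h1

/-! ### injectivity -/

theorem sg_cast {r : ℕ} {x : I27} (h : sg r x ≠ 0) : ((sg r x : ℤ) : ZMod 5) ≠ 0 := by
  have h1 := sg_sq r x h
  intro h2
  have h3 : ((sg r x : ℤ) : ZMod 5) * ((sg r x : ℤ) : ZMod 5) = 1 := by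
    rw [← Int.cast_mul, h1, Int.cast_one]
  rw [h2, zero_mul] at h3
  exact zero_ne_one h3

theorem ad_injective : Function.Injective (ad (ZMod 5)) := by
  rw [← MonoidHom.ker_eq_bot_iff, eq_bot_iff]
  intro g hg
  rw [MonoidHom.mem_ker] at hg
  rw [Subgroup.mem_bot]
  have hc := comm_B_of_ker hg
  set G : Matrix I27 I27 (ZMod 5) := ((g : GL I27 (ZMod 5)) : Matrix I27 I27 (ZMod 5)) with hG
  have hH : ∀ i < 6, G * Hm (ZMod 5) i = Hm (ZMod 5) i * G := fun i hi => hc (Sum.inl ⟨i, hi⟩)
  have hN : ∀ r < 72, G * Nm (ZMod 5) r = Nm (ZMod 5) r * G := fun r hr => hc (Sum.inr ⟨r, hr⟩)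
  -- diagonal
  have hd : ∀ x y, x ≠ y → G x y = 0 := by
    intro x y hxy
    by_contra h0
    apply hxy
    refine wt_sep fun i hi => ?_
    have h1 := congrFun (congrFun (hH i hi) x) y
    unfold Hm at h1
    rw [Matrix.mul_diagonal, Matrix.diagonal_mul, mul_comm] at h1
    exact (mul_right_cancel₀ h0 h1).symm
  have hstep : ∀ r < 72, ∀ x, sg r x ≠ 0 → G x x = G (sr r x) (sr r x) := by
    intro r hr x hx
    have h1 := congrFun (congrFun (hN r hr) x) (sr r x)
    rw [Nm_mul_apply, Matrix.mul_apply, Finset.sum_eq_single x, Nm_apply, if_pos rfl, mul_comm] at h1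
    · exact mul_left_cancel₀ (sg_cast hx) h1
    · intro y _ hy
      rw [hd x y (Ne.symm hy), zero_mul]
    · intro h; exact absurd (Finset.mem_univ _) h
  have hall : ∀ x, G x x = G (dec 9) (dec 9) := by
    intro x
    have h1 := allLt_spec conn_all _ (code_lt x)
    rw [Bool.or_eq_true] at h1
    rcases h1 with h1 | h1
    · rw [beq_iff_eq] at h1
      rw [← h1, dec_code]
    · obtain ⟨r, hr, h2⟩ := not_allLt' h1
      simp only [Bool.or_eq_false_iff, beq_eq_false_iff_ne, Bool.not_eq_false', Bool.or_eq_true, beq_iff_eq] at h2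
      obtain ⟨h2, h3⟩ := h2
      rw [hstep r hr x h2]
      rcases h3 with h3 | h3
      · rw [show sr r x = dec 9 from congrArg dec h3]
      · obtain ⟨s, hs, h4⟩ := not_allLt' h3
        simp only [Bool.or_eq_false_iff, beq_eq_false_iff_ne, Bool.not_eq_false', beq_iff_eq] at h4
        obtain ⟨h4, h5⟩ := h4
        rw [← code_sr hr] at h4 h5
        rw [hstep s hs (sr r x) h4, show sr s (sr r x) = dec 9 from congrArg dec h5]
  -- scalar
  have hs : G = Matrix.diagonal fun _ => G (dec 9) (dec 9) := by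
    ext x y
    rw [Matrix.diagonal_apply]
    by_cases hxy : x = y
    · rw [if_pos hxy, hxy, hall y]
    · rw [if_neg hxy, hd x y hxy]
  have hdet := det_Zgrp g.2
  rw [← hG, hs, Matrix.det_diagonal, Finset.prod_const, Finset.card_univ,
    show Fintype.card I27 = 27 from rfl] at hdet
  have h1 : G (dec 9) (dec 9) = 1 := by
    generalize G (dec 9) (dec 9) = d at hdet
    revert hdet
    revert d
    decide
  apply Subtype.ext
  apply Units.ext
  show G = _
  rw [hs, h1]
  exact Matrix.diagonal_one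

/-- `L5` acts on the 27-dimensional space -/
noncomputable def eE : L5 ≃* Zgrp (ZMod 5) := (MulEquiv.ofBijective (ad (ZMod 5)) ⟨ad_injective, ad_surjective⟩).symm

theorem eE_ad (g : Zgrp (ZMod 5)) : eE (ad (ZMod 5) g) = g :=
  (MulEquiv.ofBijective (ad (ZMod 5)) ⟨ad_injective, ad_surjective⟩).symm_apply_apply g

theorem ad_eE (A : L5) : ad (ZMod 5) (eE A) = A :=
  (MulEquiv.ofBijective (ad (ZMod 5)) ⟨ad_injective, ad_surjective⟩).apply_symm_apply A

/-- the root elements -/
def x5 (r : ℕ) (t : ZMod 5) : L5 := ⟨xG e6T.inList r t, Elts.xG_mem_group e6T.inList r t⟩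

/-- the root elements on the 27-dimensional space -/
def z5 (r : ℕ) (t : ZMod 5) : Zgrp (ZMod 5) := ⟨zU r t, zU_mem r t⟩

theorem x_eq {r : ℕ} (hr : r < 72) (t : ZMod 5) : chevE6.x (ZMod 5) r t = chevE6.xMat (ZMod 5) ⟨r, hr⟩ t :=
  x_of_lt (D := chevE6) hr t

theorem ad_z5 {r : ℕ} (hr : r < 72) (t : ZMod 5) : ad (ZMod 5) (z5 r t) = x5 r t := by
  apply Subtype.ext
  apply Units.ext
  refine P_unique (g := zU r t) (ad_P (z5 r t)) ?_
  show P _ (chevE6.x (ZMod 5) r t)
  rw [coe_zU hr, x_eq hr]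
  exact P_root ⟨r, hr⟩ t

theorem eE_x5 {r : ℕ} (hr : r < 72) (t : ZMod 5) : eE (x5 r t) = z5 r t := by
  rw [← ad_z5 hr, eE_ad]

end Cfsg.Agent.H890.E65
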