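import Mathlib

/-!
# Minors as functions on a group (helper890)
-/

set_option autoImplicit false

namespace Cfsg.Agent.H890.E65

open scoped Matrix

variable {Y : Type*} [Group Y] {ι : Type*} [Fintype ι] [DecidableEq ι] {k : Type*} [Field k]

/-- the minor of `R g` with rows and columns `ρ` -/
def mnr (R : Y →* Matrix ι ι k) {m : ℕ} (ρ : Fin m → ι) (g : Y) : k := ((R g).submatrix ρ ρ).det

theorem sub_mul_left {m : ℕ} {ρ : Fin m → ι} (hρ : Function.Injective ρ) (A B : Matrix ι ι k)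
    (h : ∀ a y, (∀ b, y ≠ ρ b) → A (ρ a) y = 0) :
    (A * B).submatrix ρ ρ = A.submatrix ρ ρ * B.submatrix ρ ρ := by
  ext a b
  rw [Matrix.submatrix_apply, Matrix.mul_apply, Matrix.mul_apply]
  simp only [Matrix.submatrix_apply]
  symm
  rw [← Finset.sum_image (s := Finset.univ) (g := ρ) (f := fun y => A (ρ a) y * B y (ρ b))
    (fun x _ y _ hxy => hρ hxy)]
  refine Finset.sum_subset (Finset.subset_univ _) fun y _ hy => ?_
  rw [h a y fun c hc => hy (Finset.mem_image.2 ⟨c, Finset.mem_univ _, hc.symm⟩), zero_mul]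

theorem sub_mul_right {m : ℕ} {ρ : Fin m → ι} (hρ : Function.Injective ρ) (A B : Matrix ι ι k)
    (h : ∀ a y, (∀ b, y ≠ ρ b) → B y (ρ a) = 0) :
    (A * B).submatrix ρ ρ = A.submatrix ρ ρ * B.submatrix ρ ρ := by
  ext a b
  rw [Matrix.submatrix_apply, Matrix.mul_apply, Matrix.mul_apply]
  simp only [Matrix.submatrix_apply]
  symm
  rw [← Finset.sum_image (s := Finset.univ) (g := ρ) (f := fun y => A (ρ a) y * B y (ρ b))
    (fun x _ y _ hxy => hρ hxy)]
  refine Finset.sum_subset (Finset.subset_univ _) fun y _ hy => ?_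
  rw [h b y fun c hc => hy (Finset.mem_image.2 ⟨c, Finset.mem_univ _, hc.symm⟩), mul_zero]

/-- left invariance -/
theorem mnr_left (R : Y →* Matrix ι ι k) {m : ℕ} {ρ : Fin m → ι} (hρ : Function.Injective ρ) (u g : Y)
    (h1 : ∀ a, R u (ρ a) (ρ a) = 1) (h0 : ∀ a y, (∀ b ≤ a, y ≠ ρ b) → R u (ρ a) y = 0) :
    mnr R ρ (u * g) = mnr R ρ g := by
  have hd : ((R u).submatrix ρ ρ).det = 1 := by
    rw [Matrix.det_of_isLowerTriangular, Finset.prod_eq_one]
    · intro a _
      rw [Matrix.submatrix_apply, h1 a]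
    · intro a b hab
      have hab' : a < b := hab
      exact h0 a (ρ b) fun c hc e => absurd (hρ e) (ne_of_gt (lt_of_le_of_lt hc hab'))
  unfold mnr
  rw [map_mul, sub_mul_left hρ _ _ fun a y h => h0 a y fun b _ => h b, Matrix.det_mul, hd, one_mul]

/-- right invariance -/
theorem mnr_right (R : Y →* Matrix ι ι k) {m : ℕ} {ρ : Fin m → ι} (hρ : Function.Injective ρ) (u g : Y)
    (h1 : ∀ a, R u (ρ a) (ρ a) = 1) (h0 : ∀ a y, (∀ b ≤ a, y ≠ ρ b) → R u y (ρ a) = 0) :
    mnr R ρ (g * u) = mnr R ρ g := by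
  have hd : ((R u).submatrix ρ ρ).det = 1 := by
    rw [Matrix.det_of_isUpperTriangular, Finset.prod_eq_one]
    · intro a _
      rw [Matrix.submatrix_apply, h1 a]
    · intro a b hab
      have hab' : b < a := hab
      exact h0 b (ρ a) fun c hc e => absurd (hρ e) (ne_of_gt (lt_of_le_of_lt hc hab'))
  unfold mnr
  rw [map_mul, sub_mul_right hρ _ _ fun a y h => h0 a y fun b _ => h b, Matrix.det_mul, hd, mul_one]

/-- right invariance, lower triangular form -/
theorem mnr_right' (R : Y →* Matrix ι ι k) {m : ℕ} {ρ : Fin m → ι} (hρ : Function.Injective ρ) (u g : Y)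
    (h1 : ∀ a, R u (ρ a) (ρ a) = 1) (h0 : ∀ a y, (∀ b, a ≤ b → y ≠ ρ b) → R u y (ρ a) = 0) :
    mnr R ρ (g * u) = mnr R ρ g := by
  have hd : ((R u).submatrix ρ ρ).det = 1 := by
    rw [Matrix.det_of_isLowerTriangular, Finset.prod_eq_one]
    · intro a _
      rw [Matrix.submatrix_apply, h1 a]
    · intro a b hab
      have hab' : a < b := hab
      exact h0 b (ρ a) fun c hc e => absurd (hρ e) (ne_of_lt (lt_of_lt_of_le hab' hc))
  unfold mnr
  rw [map_mul, sub_mul_right hρ _ _ fun a y h => h0 a y fun b _ => h b, Matrix.det_mul, hd, mul_one]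

theorem mnr_one (R : Y →* Matrix ι ι k) {m : ℕ} {ρ : Fin m → ι} (hρ : Function.Injective ρ) : mnr R ρ 1 = 1 := by
  unfold mnr
  rw [map_one, Matrix.submatrix_one ρ hρ, Matrix.det_one]

theorem mnr_diag (R : Y →* Matrix ι ι k) {m : ℕ} {ρ : Fin m → ι} (hρ : Function.Injective ρ) {t : Y} {d : ι → k}
    (hd : R t = Matrix.diagonal d) : mnr R ρ t = ∏ a, d (ρ a) := by
  unfold mnr
  rw [hd, Matrix.submatrix_diagonal _ _ hρ, Matrix.det_diagonal]
  rfl

/-- the torus -/
theorem mnr_tor (R : Y →* Matrix ι ι k) {m : ℕ} {ρ : Fin m → ι} (hρ : Function.Injective ρ) {t : Y} {d : ι → k}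
    (hd : R t = Matrix.diagonal d) (g : Y) : mnr R ρ (g * t) = mnr R ρ g * mnr R ρ t := by
  unfold mnr
  rw [map_mul, sub_mul_right hρ, Matrix.det_mul]
  intro a y h
  rw [hd, Matrix.diagonal_apply_ne _ (h a)]

/-- the jump -/
theorem mnr_jmp (R : Y →* Matrix ι ι k) {m : ℕ} {ρ : Fin m → ι} (l : Fin m) (n y g : Y)
    (hn : ∀ a, a ≠ l → ∀ x, R n x (ρ a) = (1 : Matrix ι ι k) x (ρ a))
    (hy : ∀ a, a ≠ l → ∀ x, R y x (ρ a) = (1 : Matrix ι ι k) x (ρ a))
    (hl : ∀ x, R n x (ρ l) = (1 : Matrix ι ι k) x (ρ l) - R y x (ρ l)) :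
    mnr R ρ (g * n) = mnr R ρ g - mnr R ρ (g * y) := by
  unfold mnr
  have e1 : ∀ (z : Y) (a : Fin m), (∀ x, R z x (ρ a) = (1 : Matrix ι ι k) x (ρ a)) →
      ∀ b, R (g * z) (ρ b) (ρ a) = R g (ρ b) (ρ a) := by
    intro z a hz b
    rw [map_mul, Matrix.mul_apply]
    simp only [hz]
    rw [← Matrix.mul_apply, mul_one]
  have e2 : ∀ b, R (g * n) (ρ b) (ρ l) = R g (ρ b) (ρ l) - R (g * y) (ρ b) (ρ l) := by
    intro b
    rw [map_mul, map_mul, Matrix.mul_apply, Matrix.mul_apply]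
    simp only [hl, mul_sub]
    rw [Finset.sum_sub_distrib, ← Matrix.mul_apply, mul_one]
  have h1 : (R (g * n)).submatrix ρ ρ = ((R g).submatrix ρ ρ).updateCol l
      (fun b => R g (ρ b) (ρ l) - R (g * y) (ρ b) (ρ l)) := by
    ext b a
    rw [Matrix.updateCol_apply, Matrix.submatrix_apply]
    split_ifs with h
    · rw [h, e2 b]
    · rw [e1 n a (hn a h) b]; rfl
  have h2 : (R (g * y)).submatrix ρ ρ = ((R g).submatrix ρ ρ).updateCol l (fun b => R (g * y) (ρ b) (ρ l)) := by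
    ext b a
    rw [Matrix.updateCol_apply, Matrix.submatrix_apply]
    split_ifs with h
    · rw [h]
    · rw [e1 y a (hy a h) b]; rfl
  have h3 : (R g).submatrix ρ ρ = ((R g).submatrix ρ ρ).updateCol l (fun b => R g (ρ b) (ρ l)) := by
    ext b a
    rw [Matrix.updateCol_apply, Matrix.submatrix_apply]
    split_ifs with h
    · rw [h]
    · rfl
  have h4 : (fun b => R g (ρ b) (ρ l) - R (g * y) (ρ b) (ρ l)) =
      (fun b => R g (ρ b) (ρ l)) + (-1 : k) • (fun b => R (g * y) (ρ b) (ρ l)) := by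
    funext b
    rw [Pi.add_apply, Pi.smul_apply, smul_eq_mul, neg_one_mul, sub_eq_add_neg]
  rw [h1, h4, Matrix.det_updateCol_add, Matrix.det_updateCol_smul, ← h2, ← h3, neg_one_mul, sub_eq_add_neg]

end Cfsg.Agent.H890.E65
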