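import Cfsg.Agent.H890.E65.FundA
import Cfsg.Agent.H890.E65.FundB

/-!
# S3650: minors are highest weight functions (helper890)
-/

set_option autoImplicit false

namespace Cfsg.Agent.H890.E65

open Cfsg.Lie Cfsg.Agent.H163.E65 Cfsg.Agent.ChevalleyStructure.E6Min.Tables
  Cfsg.Agent.ChevalleyStructure.E6Min.Basic Cfsg.Agent.ChevalleyStructure.E6Min.Adjoint
  Cfsg.Agent.ChevalleyStructure Cfsg.Agent.ChevalleyStructure.Elts Cfsg.Agent.Nodes.RGDChev
  Cfsg.Agent.ChevalleyStructure.RootVec Cfsg.Agent.ChevalleyStructure.CoxeterGeom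
open scoped Matrix MatrixGroups

/-- index of the simple roots -/
def sI (i : ℕ) : ℕ := [56, 46, 42, 39, 37, 36].getD i 0

theorem sI_lt (i : Fin 6) : sI i < 72 ∧ 36 ≤ sI i := by
  revert i; decide +kernel

theorem simple_eq (i : Fin 6) : chevE6.simple i = sI i := by
  revert i; decide +kernel

theorem neg_eq' {r : ℕ} (hr : r < 72) : chevE6.neg r = 71 - r := neg_eq hr

theorem rt_neg_all : allLt 36 (fun r => !(allLt 6 fun i => decide (0 ≤ rt chevE6 r i))) = true := by decide +kernel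

theorem rt_pos_all : allLt 36 (fun r => !(allLt 6 fun i => decide (rt chevE6 (36 + r) i ≤ 0))) = true := by
  decide +kernel

theorem lt_of_vec_le {r : ℕ} (hr : r < 72) (h : vec chevE6 6 r ≤ 0) : r < 36 := by
  by_contra hc
  obtain ⟨s, rfl⟩ := Nat.exists_eq_add_of_le (not_lt.1 hc)
  obtain ⟨i, hi, h1⟩ := not_allLt' (allLt_spec rt_pos_all s (by omega))
  rw [decide_eq_false_iff_not] at h1
  exact h1 (h ⟨i, hi⟩)

theorem le_of_le_vec {r : ℕ} (h : 0 ≤ vec chevE6 6 r) : 36 ≤ r := by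
  by_contra hc
  obtain ⟨i, hi, h1⟩ := not_allLt' (allLt_spec rt_neg_all r (by omega))
  rw [decide_eq_false_iff_not] at h1
  exact h1 (h ⟨i, hi⟩)

theorem mem_X5 {r : ℕ} (hr : r < 72) {u : L5} : u ∈ X5 (vec chevE6 6 r) ↔ ∃ t, u = x5 r t := by
  rw [Subgroup.mem_subgroupOf, XV_vec e6T (ZMod 5) hr, mem_rootSubgroup_iff e6T.inList]
  constructor
  · rintro ⟨t, h⟩
    exact ⟨t, Subtype.ext h⟩
  · rintro ⟨t, rfl⟩
    exact ⟨t, rfl⟩

theorem mem_X5_neg (i : Fin 6) {u : L5} : u ∈ X5 (-Cfsg.Agent.Tits.Roots.sr i) ↔ ∃ t, u = x5 (71 - sI i) t := by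
  have h1 : (-Cfsg.Agent.Tits.Roots.sr i : Fin 6 → ℤ) = vec chevE6 6 (71 - sI i) := by
    rw [← vec_simple e6T i, ← vec_neg e6T (by rw [simple_eq]; exact (sI_lt i).1), simple_eq, neg_eq' (sI_lt i).1]
  rw [h1]
  exact mem_X5 (by have := sI_lt i; omega)

theorem x5_zero (r : ℕ) : x5 r 0 = 1 := Subtype.ext (xG_zero e6T.inList r)

theorem x5_mul (r : ℕ) (s t : ZMod 5) : x5 r s * x5 r t = x5 r (s + t) := Subtype.ext (xG_add e6T.inList r s t)

theorem n5_eq (i : Fin 6) : n5 i = x5 (sI i) 1 * (x5 (71 - sI i) (-1) * x5 (sI i) 1) := by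
  apply Subtype.ext
  show nG e6T.inList (chevE6.simple i) 1 = _
  rw [nG_def, simple_eq, neg_eq' (sI_lt i).1, inv_one]
  rfl

variable {W : Type*} [Group W] (cs : CoxeterSystem CoxeterMatrix.E₆ W)

/-- a minor with the right table is a highest weight function -/
theorem hw_of {ι : Type*} [Fintype ι] [DecidableEq ι] (R : L5 →* Matrix ι ι (ZMod 5)) {m : ℕ} {ρ : Fin m → ι}
    (hρ : Function.Injective ρ) (l : Fin m) (i : Fin 6)
    (hneg : ∀ r < 36, ∀ t a, R (x5 r t) (ρ a) (ρ a) = 1 ∧ ∀ y, (∀ b ≤ a, y ≠ ρ b) → R (x5 r t) (ρ a) y = 0)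
    (hpos : ∀ r < 72, 36 ≤ r → ∀ t a, R (x5 r t) (ρ a) (ρ a) = 1 ∧
      ∀ y, (∀ b ≤ a, y ≠ ρ b) → R (x5 r t) y (ρ a) = 0)
    (hlev : ∀ j : Fin 6, j ≠ i → ∀ t, (∀ a, R (x5 (71 - sI j) t) (ρ a) (ρ a) = 1 ∧
      ∀ y, (∀ b ≤ a, y ≠ ρ b) → R (x5 (71 - sI j) t) y (ρ a) = 0) ∨ (∀ a, R (x5 (71 - sI j) t) (ρ a) (ρ a) = 1 ∧
      ∀ y, (∀ b, a ≤ b → y ≠ ρ b) → R (x5 (71 - sI j) t) y (ρ a) = 0))
    (hdiag : ∀ t ∈ T5, ∃ d, R t = Matrix.diagonal d)
    (hn : ∀ a, a ≠ l → ∀ x, R (n5 i) x (ρ a) = (1 : Matrix ι ι (ZMod 5)) x (ρ a))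
    (hy : ∀ a, a ≠ l → ∀ x, R (x5 (71 - sI i) 1) x (ρ a) = (1 : Matrix ι ι (ZMod 5)) x (ρ a))
    (hl : ∀ x, R (n5 i) x (ρ l) = (1 : Matrix ι ι (ZMod 5)) x (ρ l) - R (x5 (71 - sI i) 1) x (ρ l)) :
    HW cs e6T.isCartan T5 n5 X5 (mnr R ρ) (mnr R ρ) {j | j ≠ i} where
  one := mnr_one R hρ
  left x hx hx0 u hu g := by
    obtain ⟨r, hr, rfl⟩ := (isRoot_iff e6T cs x).1 hx
    obtain ⟨t, rfl⟩ := (mem_X5 hr).1 hu
    have h := hneg r (lt_of_vec_le hr hx0) t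
    exact mnr_left R hρ _ g (fun a => (h a).1) fun a => (h a).2
  right x hx hx0 u hu g := by
    obtain ⟨r, hr, rfl⟩ := (isRoot_iff e6T cs x).1 hx
    obtain ⟨t, rfl⟩ := (mem_X5 hr).1 hu
    have h := hpos r hr (le_of_le_vec hx0) t
    exact mnr_right R hρ _ g (fun a => (h a).1) fun a => (h a).2
  tor t ht g := by
    obtain ⟨d, hd⟩ := hdiag t ht
    exact mnr_tor R hρ hd g
  lev j hj u hu g := by
    obtain ⟨t, rfl⟩ := (mem_X5_neg j).1 hu
    rcases hlev j hj t with h | h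
    · exact mnr_right R hρ _ g (fun a => (h a).1) fun a => (h a).2
    · exact mnr_right' R hρ _ g (fun a => (h a).1) fun a => (h a).2
  jmp j hj := by
    obtain rfl : j = i := by
      by_contra h
      exact hj h
    refine ⟨Finsupp.single 1 1 - Finsupp.single (x5 (71 - sI j) 1) 1, ?_, ?_, ?_⟩
    · intro u hu
      have h1 := Finsupp.support_sub hu
      rw [Finset.mem_union] at h1
      rcases h1 with h1 | h1
      · rw [Finset.mem_singleton.1 (Finsupp.support_single_subset h1)]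
        exact one_mem _
      · rw [Finset.mem_singleton.1 (Finsupp.support_single_subset h1), mem_X5_neg]
        exact ⟨1, rfl⟩
    · rw [Finsupp.sum_sub_index (fun _ _ _ => rfl), Finsupp.sum_single_index rfl, Finsupp.sum_single_index rfl,
        sub_self]
    · intro g
      rw [Finsupp.sum_sub_index (fun a b c => sub_mul b c _), Finsupp.sum_single_index (zero_mul _),
        Finsupp.sum_single_index (zero_mul _), one_mul, one_mul, mul_one]
      exact mnr_jmp R l _ _ g hn hy hl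

end Cfsg.Agent.H890.E65
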