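import Cfsg.Agent.H890.E65.FundC

/-!
# S3650: the minors of the 27-dimensional module and its dual (helper890)
-/

set_option autoImplicit false
set_option maxHeartbeats 400000
set_option linter.unusedSimpArgs false

namespace Cfsg.Agent.H890.E65

open Cfsg.Lie Cfsg.Agent.H163.E65 Cfsg.Agent.ChevalleyStructure.E6Min.Tables
  Cfsg.Agent.ChevalleyStructure.E6Min.Basic Cfsg.Agent.ChevalleyStructure.E6Min.Adjoint
  Cfsg.Agent.ChevalleyStructure.E6Min.Checks2
  Cfsg.Agent.ChevalleyStructure Cfsg.Agent.ChevalleyStructure.Elts Cfsg.Agent.Nodes.RGDChev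
open scoped Matrix MatrixGroups

/-! ### `n_r(c)` and `h_r(c)` as matrices (copied from `E6Min.Torus`) -/

section
variable {F : Type*} [Field F]

theorem nM_eq {r : ℕ} (hr : r < 72) {c : F} (hc : c ≠ 0) :
    zM r c * zM (71 - r) (-c⁻¹) * zM r c =
      1 - Nm F r * Nm F (71 - r) - Nm F (71 - r) * Nm F r + c • Nm F r - c⁻¹ • Nm F (71 - r) := by
  have h1 : Nm F r * Nm F r = 0 := Nm_sq hr
  have h2 : Nm F r * Nm F (71 - r) * Nm F r = Nm F r := Nm_mul_opp_mul hr
  have e1 : zM r c * zM (71 - r) (-c⁻¹) = 1 + c • Nm F r - c⁻¹ • Nm F (71 - r) - Nm F r * Nm F (71 - r) := by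
    rw [zM_def, zM_def, add_mul, one_mul, mul_add, mul_one, smul_mul_smul_comm]
    rw [show c * -c⁻¹ = -1 by field_simp]
    simp only [neg_smul, one_smul]
    abel
  rw [e1, zM_def, mul_add, mul_one, mul_smul_comm, sub_mul, sub_mul, add_mul, one_mul, smul_mul_assoc, h1,
    smul_zero, smul_mul_assoc, h2, smul_sub, smul_sub, smul_add, smul_zero, smul_smul, mul_inv_cancel₀ hc,
    one_smul]
  abel

theorem hM_eq {r : ℕ} (hr : r < 72) {c : F} (hc : c ≠ 0) :
    zM r c * zM (71 - r) (-c⁻¹) * zM r c * (zM r (-1) * zM (71 - r) 1 * zM r (-1)) =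
      1 + (c - 1) • (Nm F r * Nm F (71 - r)) + (c⁻¹ - 1) • (Nm F (71 - r) * Nm F r) := by
  have h0 := nM_eq (F := F) hr (c := -1) (by simp)
  rw [show -(-1 : F)⁻¹ = 1 by norm_num] at h0
  rw [nM_eq hr hc, h0]
  have hr' : 71 - r < 72 := by omega
  have h1 : Nm F r * Nm F r = 0 := Nm_sq hr
  have h1' : Nm F (71 - r) * Nm F (71 - r) = 0 := Nm_sq hr'
  have h2 : Nm F r * Nm F (71 - r) * Nm F r = Nm F r := Nm_mul_opp_mul hr
  have h2' : Nm F (71 - r) * Nm F r * Nm F (71 - r) = Nm F (71 - r) := by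
    have := Nm_mul_opp_mul (F := F) hr'
    rwa [opp_opp hr] at this
  generalize Nm F r = N at *
  generalize Nm F (71 - r) = M at *
  have h3 : N * (M * N) = N := by rw [← mul_assoc, h2]
  have h3' : M * (N * M) = M := by rw [← mul_assoc, h2']
  have h4 : N * (N * M) = 0 := by rw [← mul_assoc, h1, zero_mul]
  have h4' : M * (M * N) = 0 := by rw [← mul_assoc, h1', zero_mul]
  have h5 : N * M * M = 0 := by rw [mul_assoc, h1', mul_zero]
  have h5' : M * N * N = 0 := by rw [mul_assoc, h1, mul_zero]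
  have h6 : N * M * (N * M) = N * M := by rw [← mul_assoc, h2]
  have h6' : M * N * (M * N) = M * N := by rw [← mul_assoc, h2']
  have h7 : N * M * (M * N) = 0 := by rw [← mul_assoc, h5, zero_mul]
  have h7' : M * N * (N * M) = 0 := by rw [← mul_assoc, h5', zero_mul]
  simp only [add_mul, sub_mul, mul_add, mul_sub, mul_one, one_mul, smul_mul_assoc, mul_smul_comm, neg_smul,
    one_smul, mul_neg, neg_mul, h1, h1', h2, h2', h3, h3', h4, h4', h5, h5', h6, h6', h7, h7', inv_neg, inv_one,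
    smul_zero, sub_smul]
  abel

end

theorem sI_all : allLt 6 (fun i => Nat.blt (sI i) 72 && allLt 27 fun x =>
    (((indN (sI i) x == 1) && (indN (71 - sI i) x == 0) && (lbN x i == 1)) ||
     ((indN (sI i) x == 0) && (indN (71 - sI i) x == 1) && (lbN x i == -1)) ||
     ((indN (sI i) x == 0) && (indN (71 - sI i) x == 0) && (lbN x i == 0)))) = true := by
  decide +kernel

/-! ### the two modules -/

/-- the 27-dimensional module -/
noncomputable def R1 : L5 →* Matrix I27 I27 (ZMod 5) :=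
  (Units.coeHom _).comp ((Subgroup.subtype _).comp eE.toMonoidHom)

theorem R1_apply (A : L5) : R1 A = ((eE A : GL I27 (ZMod 5)) : Matrix I27 I27 (ZMod 5)) := rfl

theorem R1_x5 {r : ℕ} (hr : r < 72) (t : ZMod 5) : R1 (x5 r t) = zM r t := by
  rw [R1_apply, eE_x5 hr]
  exact coe_zU hr t

/-- the dual module -/
noncomputable def R2 : L5 →* Matrix I27 I27 (ZMod 5) where
  toFun A := (R1 A⁻¹)ᵀ
  map_one' := by rw [inv_one, map_one, Matrix.transpose_one]
  map_mul' A C := by rw [mul_inv_rev, map_mul, Matrix.transpose_mul]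

theorem R2_apply (A : L5) : R2 A = (R1 A⁻¹)ᵀ := rfl

theorem x5_inv (r : ℕ) (t : ZMod 5) : (x5 r t)⁻¹ = x5 r (-t) :=
  inv_eq_of_mul_eq_one_right (by rw [x5_mul, add_neg_cancel, x5_zero])

theorem R2_x5 {r : ℕ} (hr : r < 72) (t : ZMod 5) : R2 (x5 r t) = (zM r (-t))ᵀ := by
  rw [R2_apply, x5_inv, R1_x5 hr]

/-! ### the torus -/

/-- `h_r(t)` in `L5` -/
def hh (r : ℕ) (t : ZMod 5) : L5 := ⟨hG e6T.inList r t, Elts.hG_mem_group e6T.inList _ _⟩

theorem hh_eq {r : ℕ} (hr : r < 72) (t : ZMod 5) : hh r t = x5 r t * (x5 (71 - r) (-t⁻¹) * x5 r t) *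
    (x5 r (-1) * (x5 (71 - r) 1 * x5 r (-1))) := by
  apply Subtype.ext
  show hG e6T.inList r t = _
  rw [hG_def, nG_def, nG_def, neg_eq' hr, show -(-1 : ZMod 5)⁻¹ = 1 by norm_num]
  rfl

theorem R1_hh {r : ℕ} (hr : r < 72) {t : ZMod 5} (ht : t ≠ 0) : R1 (hh r t) =
    Matrix.diagonal fun x => 1 + (t - 1) * ((ind r x : ℤ) : ZMod 5) + (t⁻¹ - 1) * ((ind (71 - r) x : ℤ) : ZMod 5) := by
  have h1 := hM_eq hr ht
  rw [Nm_mul_opp hr, Nm_opp_mul hr] at h1
  rw [hh_eq hr]
  simp only [map_mul]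
  rw [R1_x5 hr, R1_x5 hr, R1_x5 (by omega), R1_x5 (by omega), ← mul_assoc (zM r t), ← mul_assoc (zM r (-1)), h1]
  ext x y
  simp only [Matrix.add_apply, Matrix.smul_apply, Matrix.diagonal_apply, Matrix.one_apply, smul_eq_mul]
  by_cases hxy : x = y
  · simp only [hxy, if_true]
  · simp only [hxy, if_false]; simp

theorem h5_eq (j : Fin 6) (t : ZMod 5) : h5 j t = hh (sI j) t := by
  apply Subtype.ext
  show hG e6T.inList (chevE6.simple j) t = _
  rw [simple_eq]
  rfl

theorem R1_h5 (j : Fin 6) {t : ZMod 5} (ht : t ≠ 0) : R1 (h5 j t) = Matrix.diagonal fun x => t ^ (wt x j) := by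
  rw [h5_eq, R1_hh (sI_lt j).1 ht]
  congr 1
  funext x
  have := allLt_spec sI_all j j.isLt
  rw [Bool.and_eq_true] at this
  have := allLt_spec this.2 _ (code_lt x)
  simp only [Bool.or_eq_true, Bool.and_eq_true, beq_iff_eq] at this
  unfold ind wt
  rcases this with (⟨⟨h1, h2⟩, h3⟩ | ⟨⟨h1, h2⟩, h3⟩) | ⟨⟨h1, h2⟩, h3⟩
  · rw [h1, h2, h3]; simp
  · rw [h1, h2, h3]; simp
  · rw [h1, h2, h3]; simp

theorem hh_inv {j : Fin 6} {t : ZMod 5} (ht : t ≠ 0) : R1 (h5 j t)⁻¹ = Matrix.diagonal fun x => t⁻¹ ^ (wt x j) := by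
  have h1 : R1 (h5 j t)⁻¹ * R1 (h5 j t) = 1 := by rw [← map_mul, inv_mul_cancel, map_one]
  have h2 : R1 (h5 j t) * (Matrix.diagonal fun x => t⁻¹ ^ (wt x j)) = 1 := by
    rw [R1_h5 j ht, Matrix.diagonal_mul_diagonal, ← Matrix.diagonal_one]
    congr 1
    funext x
    rw [inv_zpow, mul_inv_cancel₀ (zpow_ne_zero _ ht)]
  calc R1 (h5 j t)⁻¹ = R1 (h5 j t)⁻¹ * (R1 (h5 j t) * (Matrix.diagonal fun x => t⁻¹ ^ (wt x j))) := by
        rw [h2, mul_one]
    _ = _ := by rw [← mul_assoc, h1, one_mul]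

theorem diag_inv {ι : Type*} [Fintype ι] [DecidableEq ι] {D E : Matrix ι ι (ZMod 5)} (h : D * E = 1)
    (hD : ∃ d, D = Matrix.diagonal d) : ∃ d, E = Matrix.diagonal d := by
  obtain ⟨d, rfl⟩ := hD
  refine ⟨fun x => E x x, ?_⟩
  ext x y
  rw [Matrix.diagonal_apply]
  split_ifs with hxy
  · rw [hxy]
  · have h1 := congrFun (congrFun h x) x
    have h2 := congrFun (congrFun h x) y
    rw [Matrix.diagonal_mul, Matrix.one_apply_eq] at h1
    rw [Matrix.diagonal_mul, Matrix.one_apply_ne hxy] at h2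
    rcases mul_eq_zero.1 h2 with h3 | h3
    · rw [h3, zero_mul] at h1
      exact absurd h1 zero_ne_one
    · exact h3

/-- the elements acting diagonally -/
def dgS {ι : Type*} [Fintype ι] [DecidableEq ι] (R : L5 →* Matrix ι ι (ZMod 5)) : Subgroup L5 where
  carrier := {A | ∃ d, R A = Matrix.diagonal d}
  mul_mem' := by
    rintro A C ⟨d, hd⟩ ⟨e, he⟩
    exact ⟨fun x => d x * e x, by rw [map_mul, hd, he, Matrix.diagonal_mul_diagonal]⟩
  one_mem' := ⟨fun _ => 1, by rw [map_one, Matrix.diagonal_one]⟩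
  inv_mem' := by
    rintro A hA
    exact diag_inv (D := R A) (by rw [← map_mul, mul_inv_cancel, map_one]) hA

theorem T5_le {S : Subgroup L5} (h : ∀ r < 72, ∀ t : ZMod 5, t ≠ 0 → hh r t ∈ S) : T5 ≤ S := by
  intro A hA
  have h1 : chevE6.diagonalSubgroup (ZMod 5) ≤ S.map (chevE6.group (ZMod 5)).subtype := by
    rw [diagonal_le_iff e6T.inList]
    intro r hr t ht
    exact ⟨hh r t, h r hr t ht, rfl⟩
  obtain ⟨C, hC, e⟩ := h1 hA
  rw [← show C = A from Subtype.ext e]
  exact hC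

theorem diag_R1 {A : L5} (hA : A ∈ T5) : ∃ d, R1 A = Matrix.diagonal d := by
  have h1 : T5 ≤ dgS R1 := T5_le fun r hr t ht => ⟨_, R1_hh hr ht⟩
  exact h1 hA

theorem diag_R2 {A : L5} (hA : A ∈ T5) : ∃ d, R2 A = Matrix.diagonal d := by
  obtain ⟨d, hd⟩ := diag_R1 (inv_mem hA)
  exact ⟨d, by rw [R2_apply, hd, Matrix.diagonal_transpose]⟩

/-! ### checks -/

/-- existence below a bound as a Boolean -/
def exLt (n : ℕ) (p : ℕ → Bool) : Bool := Nat.rec false (fun k acc => p k || acc) n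

theorem exLt_spec {n : ℕ} {p : ℕ → Bool} (h : exLt n p = true) : ∃ k, k < n ∧ p k = true := by
  induction n with
  | zero => exact absurd h Bool.false_ne_true
  | succ n ih =>
    have h' : (p n || exLt n p) = true := h
    rw [Bool.or_eq_true] at h'
    rcases h' with h1 | h1
    · exact ⟨n, Nat.lt_succ_self n, h1⟩
    · obtain ⟨k, hk, h2⟩ := ih h1
      exact ⟨k, Nat.lt_succ_of_lt hk, h2⟩

/-- the rows `c a` of `N_r` are zero outside the columns `c b`, `b < a` -/
def rowOK (c : ℕ → ℕ) (m r : ℕ) : Bool := allLt m fun a => (sgN r (c a) == 0) || exLt a fun b => srN r (c a) == c b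

/-- the columns `c a` of `N_r` are zero outside the rows `c b`, `b < a` -/
def colOK (c : ℕ → ℕ) (m r : ℕ) : Bool := allLt m fun a => allLt 27 fun x =>
  (sgN r x == 0) || !(srN r x == c a) || exLt a fun b => x == c b

theorem rowOK_spec {c : ℕ → ℕ} {m r : ℕ} (hr : r < 72) (hc : ∀ a < m, c a < 27) (h : rowOK c m r = true)
    (t : ZMod 5) (a : Fin m) : zM r t (dec (c a)) (dec (c a)) = 1 ∧
      ∀ y, (∀ b : Fin m, b ≤ a → y ≠ dec (c b)) → zM r t (dec (c a)) y = 0 := by
  have key : ∀ y : I27, (∀ b : Fin m, b < a → y ≠ dec (c b)) → Nm (ZMod 5) r (dec (c a)) y = 0 := by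
    intro y hy
    rw [Nm_apply]
    have h1 := allLt_spec h a a.isLt
    rw [Bool.or_eq_true, beq_iff_eq] at h1
    rcases h1 with h1 | h1
    · have h2 : sg r (dec (c a)) = 0 := by
        unfold sg; rw [code_dec (hc a a.isLt)]; exact h1
      rw [h2]; simp
    · obtain ⟨b, hb, h2⟩ := exLt_spec h1
      rw [beq_iff_eq] at h2
      rw [if_neg]
      intro e
      refine hy ⟨b, lt_trans hb a.isLt⟩ hb ?_
      rw [e]
      unfold sr
      rw [code_dec (hc a a.isLt), h2]
  constructor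
  · rw [zM_def, Matrix.add_apply, Matrix.one_apply_eq, Matrix.smul_apply, Nm_apply]
    rcases row_diag hr (dec (c a)) with h1 | h1
    · rw [h1]; simp
    · rw [if_neg h1, smul_zero, add_zero]
  · intro y hy
    rw [zM_def, Matrix.add_apply, Matrix.one_apply_ne (Ne.symm (hy a le_rfl)), Matrix.smul_apply,
      key y fun b hb => hy b hb.le, smul_zero, add_zero]

theorem colOK_spec {c : ℕ → ℕ} {m r : ℕ} (hr : r < 72) (h : colOK c m r = true)
    (hc : ∀ a < m, c a < 27)
    (t : ZMod 5) (a : Fin m) : zM r t (dec (c a)) (dec (c a)) = 1 ∧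
      ∀ y, (∀ b : Fin m, b ≤ a → y ≠ dec (c b)) → zM r t y (dec (c a)) = 0 := by
  have key : ∀ y : I27, (∀ b : Fin m, b < a → y ≠ dec (c b)) → Nm (ZMod 5) r y (dec (c a)) = 0 := by
    intro y hy
    rw [Nm_apply]
    have h1 := allLt_spec (allLt_spec h a a.isLt) _ (code_lt y)
    simp only [Bool.or_eq_true, beq_iff_eq, Bool.not_eq_true', beq_eq_false_iff_ne] at h1
    rcases h1 with (h1 | h1) | h1
    · have h2 : sg r y = 0 := h1
      rw [h2]; simp
    · rw [if_neg]
      intro e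
      apply h1
      have h2 := congrArg code e
      rw [code_dec (hc a a.isLt), code_sr hr] at h2
      exact h2.symm
    · obtain ⟨b, hb, h2⟩ := exLt_spec h1
      rw [beq_iff_eq] at h2
      exact absurd (show y = dec (c b) by rw [← h2, dec_code]) (hy ⟨b, lt_trans hb a.isLt⟩ hb)
  constructor
  · rw [zM_def, Matrix.add_apply, Matrix.one_apply_eq, Matrix.smul_apply, Nm_apply]
    rcases row_diag hr (dec (c a)) with h1 | h1
    · rw [h1]; simp
    · rw [if_neg h1, smul_zero, add_zero]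
  · intro y hy
    rw [zM_def, Matrix.add_apply, Matrix.one_apply_ne (hy a le_rfl), Matrix.smul_apply,
      key y fun b hb => hy b hb.le, smul_zero, add_zero]

/-- the rows `c a` of `N_r` are zero outside the columns `c b`, `a < b` -/
def rowOK' (c : ℕ → ℕ) (m r : ℕ) : Bool := allLt m fun a => (sgN r (c a) == 0) ||
  exLt m fun b => Nat.blt a b && (srN r (c a) == c b)

/-- the columns `c a` of `N_r` are zero outside the rows `c b`, `a < b` -/
def colOK' (c : ℕ → ℕ) (m r : ℕ) : Bool := allLt m fun a => allLt 27 fun x =>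
  (sgN r x == 0) || !(srN r x == c a) || exLt m fun b => Nat.blt a b && (x == c b)

theorem rowOK_spec' {c : ℕ → ℕ} {m r : ℕ} (hr : r < 72) (hc : ∀ a < m, c a < 27) (h : rowOK' c m r = true)
    (t : ZMod 5) (a : Fin m) : zM r t (dec (c a)) (dec (c a)) = 1 ∧
      ∀ y, (∀ b : Fin m, a ≤ b → y ≠ dec (c b)) → zM r t (dec (c a)) y = 0 := by
  have key : ∀ y : I27, (∀ b : Fin m, a < b → y ≠ dec (c b)) → Nm (ZMod 5) r (dec (c a)) y = 0 := by
    intro y hy
    rw [Nm_apply]
    have h1 := allLt_spec h a a.isLt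
    rw [Bool.or_eq_true, beq_iff_eq] at h1
    rcases h1 with h1 | h1
    · have h2 : sg r (dec (c a)) = 0 := by
        unfold sg; rw [code_dec (hc a a.isLt)]; exact h1
      rw [h2]; simp
    · obtain ⟨b, hb, h2⟩ := exLt_spec h1
      rw [Bool.and_eq_true, Nat.blt_eq, beq_iff_eq] at h2
      rw [if_neg]
      intro e
      refine hy ⟨b, hb⟩ h2.1 ?_
      rw [e]
      unfold sr
      rw [code_dec (hc a a.isLt), h2.2]
  constructor
  · rw [zM_def, Matrix.add_apply, Matrix.one_apply_eq, Matrix.smul_apply, Nm_apply]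
    rcases row_diag hr (dec (c a)) with h1 | h1
    · rw [h1]; simp
    · rw [if_neg h1, smul_zero, add_zero]
  · intro y hy
    rw [zM_def, Matrix.add_apply, Matrix.one_apply_ne (Ne.symm (hy a le_rfl)), Matrix.smul_apply,
      key y fun b hb => hy b hb.le, smul_zero, add_zero]

theorem colOK_spec' {c : ℕ → ℕ} {m r : ℕ} (hr : r < 72) (h : colOK' c m r = true)
    (hc : ∀ a < m, c a < 27)
    (t : ZMod 5) (a : Fin m) : zM r t (dec (c a)) (dec (c a)) = 1 ∧
      ∀ y, (∀ b : Fin m, a ≤ b → y ≠ dec (c b)) → zM r t y (dec (c a)) = 0 := by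
  have key : ∀ y : I27, (∀ b : Fin m, a < b → y ≠ dec (c b)) → Nm (ZMod 5) r y (dec (c a)) = 0 := by
    intro y hy
    rw [Nm_apply]
    have h1 := allLt_spec (allLt_spec h a a.isLt) _ (code_lt y)
    simp only [Bool.or_eq_true, beq_iff_eq, Bool.not_eq_true', beq_eq_false_iff_ne] at h1
    rcases h1 with (h1 | h1) | h1
    · have h2 : sg r y = 0 := h1
      rw [h2]; simp
    · rw [if_neg]
      intro e
      apply h1
      have h2 := congrArg code e
      rw [code_dec (hc a a.isLt), code_sr hr] at h2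
      exact h2.symm
    · obtain ⟨b, hb, h2⟩ := exLt_spec h1
      rw [Bool.and_eq_true, Nat.blt_eq, beq_iff_eq] at h2
      exact absurd (show y = dec (c b) by rw [← h2.2, dec_code]) (hy ⟨b, hb⟩ h2.1)
  constructor
  · rw [zM_def, Matrix.add_apply, Matrix.one_apply_eq, Matrix.smul_apply, Nm_apply]
    rcases row_diag hr (dec (c a)) with h1 | h1
    · rw [h1]; simp
    · rw [if_neg h1, smul_zero, add_zero]
  · intro y hy
    rw [zM_def, Matrix.add_apply, Matrix.one_apply_ne (hy a le_rfl), Matrix.smul_apply,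
      key y fun b hb => hy b hb.le, smul_zero, add_zero]

theorem dec_inj {c : ℕ → ℕ} {m : ℕ} (hc : ∀ a < m, c a < 27) (hi : ∀ a < m, ∀ b < m, c a = c b → a = b) :
    Function.Injective fun a : Fin m => dec (c a) := by
  intro a b h
  exact Fin.ext (hi a a.isLt b b.isLt ((dec_eq_iff (hc a a.isLt) (hc b b.isLt)).1 h))

/-- a column of `N_r` is zero -/
def colZ (r y : ℕ) : Bool := allLt 27 fun x => (sgN r x == 0) || !(srN r x == y)

theorem colZ_spec {r y : ℕ} (hr : r < 72) (hy : y < 27) (h : colZ r y = true) (x : I27) :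
    Nm (ZMod 5) r x (dec y) = 0 := by
  rw [Nm_apply]
  have h1 := allLt_spec h _ (code_lt x)
  simp only [Bool.or_eq_true, beq_iff_eq, Bool.not_eq_true', beq_eq_false_iff_ne] at h1
  rcases h1 with h1 | h1
  · rw [show sg r x = 0 from h1]; simp
  · rw [if_neg]
    intro e
    apply h1
    have h2 := congrArg code e
    rw [code_dec hy, code_sr hr] at h2
    exact h2.symm

theorem rowZ_spec {r y : ℕ} (hy : y < 27) (h : sgN r y = 0) (x : I27) : Nm (ZMod 5) r (dec y) x = 0 := by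
  rw [Nm_apply, show sg r (dec y) = 0 by unfold sg; rw [code_dec hy]; exact h]
  simp

theorem R1_n5 (i : Fin 6) (x y : I27) : R1 (n5 i) x y = (1 : Matrix I27 I27 (ZMod 5)) x y -
    (if x = y then ((ind (sI i) y : ℤ) : ZMod 5) else 0) - (if x = y then ((ind (71 - sI i) y : ℤ) : ZMod 5) else 0) +
    Nm (ZMod 5) (sI i) x y - Nm (ZMod 5) (71 - sI i) x y := by
  have hr := (sI_lt i).1
  have h1 := nM_eq (F := ZMod 5) hr (c := 1) one_ne_zero
  rw [Nm_mul_opp hr, Nm_opp_mul hr, inv_one, one_smul, one_smul] at h1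
  rw [n5_eq, map_mul, map_mul, R1_x5 hr, R1_x5 (by omega), ← mul_assoc, h1]
  simp only [Matrix.add_apply, Matrix.sub_apply, Matrix.diagonal_apply]
  by_cases hxy : x = y
  · simp only [hxy, if_true]
  · simp only [hxy, if_false]

theorem R2_n5 (i : Fin 6) (x y : I27) : R2 (n5 i) x y = (1 : Matrix I27 I27 (ZMod 5)) x y -
    (if x = y then ((ind (sI i) y : ℤ) : ZMod 5) else 0) - (if x = y then ((ind (71 - sI i) y : ℤ) : ZMod 5) else 0) -
    Nm (ZMod 5) (sI i) y x + Nm (ZMod 5) (71 - sI i) y x := by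
  have hr := (sI_lt i).1
  have h1 := nM_eq (F := ZMod 5) hr (c := -1) (by decide)
  rw [Nm_mul_opp hr, Nm_opp_mul hr, show (-1 : ZMod 5)⁻¹ = -1 by rw [inv_neg, inv_one], neg_neg, neg_smul, neg_smul, one_smul,
    one_smul] at h1
  rw [n5_eq, R2_apply, mul_inv_rev, mul_inv_rev, x5_inv, x5_inv, map_mul, map_mul, R1_x5 hr, R1_x5 (by omega),
    neg_neg, h1]
  simp only [Matrix.transpose_apply, Matrix.add_apply, Matrix.sub_apply, Matrix.diagonal_apply, Matrix.neg_apply,
    Matrix.one_apply]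
  by_cases hxy : x = y
  · simp only [hxy, if_true]; ring
  · simp only [hxy, Ne.symm hxy, if_false]; ring

variable {W : Type*} [Group W] (cs : CoxeterSystem CoxeterMatrix.E₆ W)

/-- the minors of the 27-dimensional module -/
theorem hw_R1 (c : ℕ → ℕ) (m : ℕ) (hc : ∀ a < m, c a < 27) (hi : ∀ a < m, ∀ b < m, c a = c b → a = b)
    (l : Fin m) (i : Fin 6) (h1 : allLt 36 (fun r => rowOK c m r) = true)
    (h2 : allLt 36 (fun r => colOK c m (36 + r)) = true)
    (h3 : allLt 6 (fun j => (j == i.val) || (colOK c m (71 - sI j) || colOK' c m (71 - sI j))) = true)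
    (h4 : allLt m (fun a => (a == l.val) || (colZ (sI i) (c a) && colZ (71 - sI i) (c a) && (indN (sI i) (c a) == 0) &&
      (indN (71 - sI i) (c a) == 0))) = true)
    (h5 : colZ (sI i) (c l) = true) (h6 : indN (sI i) (c l) + indN (71 - sI i) (c l) = 1) :
    HW cs e6T.isCartan T5 n5 X5 (mnr R1 fun a : Fin m => dec (c a)) (mnr R1 fun a : Fin m => dec (c a))
      {j | j ≠ i} := by
  refine hw_of cs R1 (dec_inj hc hi) l i ?_ ?_ ?_ (fun t ht => diag_R1 ht) ?_ ?_ ?_
  · intro r hr t a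
    rw [R1_x5 (by omega)]
    exact rowOK_spec (by omega) hc (allLt_spec h1 r hr) t a
  · intro r hr hr' t a
    rw [R1_x5 hr]
    obtain ⟨s, rfl⟩ := Nat.exists_eq_add_of_le hr'
    exact colOK_spec hr (allLt_spec h2 s (by omega)) hc t a
  · intro j hj t
    rw [R1_x5 (by omega)]
    have h7 := allLt_spec h3 j j.isLt
    rw [Bool.or_eq_true, Bool.or_eq_true, beq_iff_eq] at h7
    rcases h7.resolve_left fun e => hj (Fin.ext e) with h8 | h8
    · exact Or.inl (colOK_spec (by omega) h8 hc t)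
    · exact Or.inr (colOK_spec' (by omega) h8 hc t)
  · intro a ha x
    have h7 := allLt_spec h4 a a.isLt
    simp only [Bool.or_eq_true, Bool.and_eq_true, beq_iff_eq] at h7
    obtain ⟨⟨⟨h8, h9⟩, h10⟩, h11⟩ := h7.resolve_left fun e => ha (Fin.ext e)
    rw [R1_n5, colZ_spec (sI_lt i).1 (hc a a.isLt) h8, colZ_spec (by omega) (hc a a.isLt) h9,
      show ind (sI i) (dec (c a)) = 0 by unfold ind; rw [code_dec (hc a a.isLt)]; exact h10,
      show ind (71 - sI i) (dec (c a)) = 0 by unfold ind; rw [code_dec (hc a a.isLt)]; exact h11]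
    simp
  · intro a ha x
    have h7 := allLt_spec h4 a a.isLt
    simp only [Bool.or_eq_true, Bool.and_eq_true, beq_iff_eq] at h7
    obtain ⟨⟨⟨h8, h9⟩, h10⟩, h11⟩ := h7.resolve_left fun e => ha (Fin.ext e)
    rw [R1_x5 (by omega), zM_def, Matrix.add_apply, Matrix.smul_apply, colZ_spec (by omega) (hc a a.isLt) h9,
      smul_zero, add_zero]
  · intro x
    rw [R1_n5, R1_x5 (by omega), zM_def, Matrix.add_apply, one_smul, colZ_spec (sI_lt i).1 (hc l l.isLt) h5]
    have h7 : ((ind (sI i) (dec (c l)) : ℤ) : ZMod 5) + ((ind (71 - sI i) (dec (c l)) : ℤ) : ZMod 5) = 1 := by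
      rw [← Int.cast_add]
      unfold ind
      rw [code_dec (hc l l.isLt), h6, Int.cast_one]
    rw [Matrix.one_apply]
    split_ifs with hx
    · linear_combination -h7
    · ring

/-- the minors of the dual module -/
theorem hw_R2 (c : ℕ → ℕ) (m : ℕ) (hc : ∀ a < m, c a < 27) (hi : ∀ a < m, ∀ b < m, c a = c b → a = b)
    (l : Fin m) (i : Fin 6) (h1 : allLt 36 (fun r => colOK c m r) = true)
    (h2 : allLt 36 (fun r => rowOK c m (36 + r)) = true)
    (h3 : allLt 6 (fun j => (j == i.val) || (rowOK c m (71 - sI j) || rowOK' c m (71 - sI j))) = true)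
    (h4 : allLt m (fun a => (a == l.val) || ((sgN (sI i) (c a) == 0) && (sgN (71 - sI i) (c a) == 0) &&
      (indN (sI i) (c a) == 0) && (indN (71 - sI i) (c a) == 0))) = true)
    (h5 : sgN (sI i) (c l) = 0) (h6 : indN (sI i) (c l) + indN (71 - sI i) (c l) = 1) :
    HW cs e6T.isCartan T5 n5 X5 (mnr R2 fun a : Fin m => dec (c a)) (mnr R2 fun a : Fin m => dec (c a))
      {j | j ≠ i} := by
  refine hw_of cs R2 (dec_inj hc hi) l i ?_ ?_ ?_ (fun t ht => diag_R2 ht) ?_ ?_ ?_
  · intro r hr t a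
    rw [R2_x5 (by omega)]
    exact colOK_spec (by omega) (allLt_spec h1 r hr) hc (-t) a
  · intro r hr hr' t a
    rw [R2_x5 hr]
    obtain ⟨s, rfl⟩ := Nat.exists_eq_add_of_le hr'
    exact rowOK_spec hr hc (allLt_spec h2 s (by omega)) (-t) a
  · intro j hj t
    rw [R2_x5 (by omega)]
    have h7 := allLt_spec h3 j j.isLt
    rw [Bool.or_eq_true, Bool.or_eq_true, beq_iff_eq] at h7
    rcases h7.resolve_left fun e => hj (Fin.ext e) with h8 | h8
    · exact Or.inl (rowOK_spec (by omega) hc h8 (-t))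
    · exact Or.inr (rowOK_spec' (by omega) hc h8 (-t))
  · intro a ha x
    have h7 := allLt_spec h4 a a.isLt
    simp only [Bool.or_eq_true, Bool.and_eq_true, beq_iff_eq] at h7
    obtain ⟨⟨⟨h8, h9⟩, h10⟩, h11⟩ := h7.resolve_left fun e => ha (Fin.ext e)
    rw [R2_n5, rowZ_spec (hc a a.isLt) h8, rowZ_spec (hc a a.isLt) h9,
      show ind (sI i) (dec (c a)) = 0 by unfold ind; rw [code_dec (hc a a.isLt)]; exact h10,
      show ind (71 - sI i) (dec (c a)) = 0 by unfold ind; rw [code_dec (hc a a.isLt)]; exact h11]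
    simp
  · intro a ha x
    have h7 := allLt_spec h4 a a.isLt
    simp only [Bool.or_eq_true, Bool.and_eq_true, beq_iff_eq] at h7
    obtain ⟨⟨⟨h8, h9⟩, h10⟩, h11⟩ := h7.resolve_left fun e => ha (Fin.ext e)
    rw [R2_x5 (by omega), Matrix.transpose_apply, zM_def, Matrix.add_apply, Matrix.smul_apply,
      rowZ_spec (hc a a.isLt) h9, smul_zero, add_zero, Matrix.one_apply, Matrix.one_apply]
    simp only [eq_comm]
  · intro x
    rw [R2_n5, R2_x5 (by omega), Matrix.transpose_apply, zM_def, Matrix.add_apply, neg_smul, one_smul,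
      Matrix.neg_apply, rowZ_spec (hc l l.isLt) h5]
    have h7 : ((ind (sI i) (dec (c l)) : ℤ) : ZMod 5) + ((ind (71 - sI i) (dec (c l)) : ℤ) : ZMod 5) = 1 := by
      rw [← Int.cast_add]
      unfold ind
      rw [code_dec (hc l l.isLt), h6, Int.cast_one]
    rw [Matrix.one_apply, Matrix.one_apply]
    by_cases hx : x = dec (c l)
    · rw [if_pos hx, if_pos hx, if_pos hx, if_pos hx.symm]
      linear_combination -h7
    · rw [if_neg hx, if_neg hx, if_neg hx, if_neg (Ne.symm hx)]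
      ring

end Cfsg.Agent.H890.E65
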